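import Mathlib
import Cfsg.Agent.Lib.Helper18.LSDefs
import Cfsg.Agent.Lib.Helper18.WRDefs

/-! Project WR (S2347), piece SCHUR (helper95). -/

set_option autoImplicit false

namespace Cfsg.Agent.Lib.Helper18.WR

open Matrix

universe u

variable {F : Type u} [Field F] {n : ℕ}

-- piece SCHUR
theorem weyl_schur {E V : Type*} [AddCommGroup E] [Module ℂ E] [FiniteDimensional ℂ E]
    (W : V → Module.End ℂ E) (hspan : Submodule.span ℂ (Set.range W) = ⊤)
    (C : Module.End ℂ E) (hC : ∀ v, C * W v = W v * C) : ∃ z : ℂ, C = z • 1 := by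
  -- `C` commutes with everything
  have hall : ∀ D : Module.End ℂ E, C * D = D * C := by
    intro D
    have hD : D ∈ Submodule.span ℂ (Set.range W) := by rw [hspan]; exact Submodule.mem_top
    induction hD using Submodule.span_induction with
    | mem x hx =>
      obtain ⟨v, rfl⟩ := hx
      exact hC v
    | zero => simp
    | add x y _ _ hx hy => rw [mul_add, add_mul, hx, hy]
    | smul a x _ hx => rw [mul_smul_comm, smul_mul_assoc, hx]
  have hcen : C ∈ Subalgebra.center ℂ (Module.End ℂ E) := by
    rw [Subalgebra.mem_center_iff]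
    intro D
    exact (hall D).symm
  rw [Algebra.IsCentral.center_eq_bot, Algebra.mem_bot] at hcen
  obtain ⟨z, hz⟩ := hcen
  exact ⟨z, by rw [← hz, Algebra.algebraMap_eq_smul_one]⟩

end Cfsg.Agent.Lib.Helper18.WR
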