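import Mathlib
import Cfsg.Agent.Lib.Helper48.QADefs

/-!
# Project QA (helper48, S2787), piece QA-BORD (helper95)
An element of `SL₂(F)`, `char F = p` odd, of order coprime to `2p` has `tr² ≠ 4`.
-/

set_option autoImplicit false

universe u

namespace Cfsg.Agent.Lib.Helper48.QA

open Matrix Polynomial

local notation "SL2" F => Matrix.SpecialLinearGroup (Fin 2) F
local notation "PSL2" F => Matrix.ProjectiveSpecialLinearGroup (Fin 2) F
local notation "M2" F => Matrix (Fin 2) (Fin 2) F

/-- trace `2` and determinant `1`: `(A - 1)² = 0` -/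
theorem bord_sub_sq {F : Type*} [Field F] (A : M2 F) (hdet : A.det = 1)
    (htr : Matrix.trace A = 2) : (A - 1) * (A - 1) = 0 := by
  rw [Matrix.det_fin_two] at hdet
  rw [Matrix.trace_fin_two] at htr
  ext i j
  fin_cases i <;> fin_cases j
  · simp [Matrix.mul_apply, Fin.sum_univ_two]
    linear_combination A 0 0 * htr - hdet
  · simp [Matrix.mul_apply, Fin.sum_univ_two]
    linear_combination A 0 1 * htr
  · simp [Matrix.mul_apply, Fin.sum_univ_two]
    linear_combination A 1 0 * htr
  · simp [Matrix.mul_apply, Fin.sum_univ_two]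
    linear_combination A 1 1 * htr - hdet

/-- trace `-2` and determinant `1`: `(A + 1)² = 0` -/
theorem bord_add_sq {F : Type*} [Field F] (A : M2 F) (hdet : A.det = 1)
    (htr : Matrix.trace A = -2) : (A + 1) * (A + 1) = 0 := by
  rw [Matrix.det_fin_two] at hdet
  rw [Matrix.trace_fin_two] at htr
  ext i j
  fin_cases i <;> fin_cases j
  · simp [Matrix.mul_apply, Fin.sum_univ_two]
    linear_combination A 0 0 * htr - hdet
  · simp [Matrix.mul_apply, Fin.sum_univ_two]
    linear_combination A 0 1 * htr
  · simp [Matrix.mul_apply, Fin.sum_univ_two]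
    linear_combination A 1 0 * htr
  · simp [Matrix.mul_apply, Fin.sum_univ_two]
    linear_combination A 1 1 * htr - hdet

/-- a square-zero element has vanishing `p`-th power -/
theorem bord_pow_zero {R : Type*} [Ring R] (N : R) (hN : N * N = 0) (p : ℕ) (hp : 2 ≤ p) :
    N ^ p = 0 := by
  obtain ⟨k, rfl⟩ := Nat.exists_eq_add_of_le hp
  rw [pow_add, pow_two, hN, zero_mul]

/-- QA-BORD -/
theorem trace_sq_ne_four {F : Type*} [Field F] {p : ℕ} [Fact p.Prime] [CharP F p] (hp2 : p ≠ 2)
    (c : SL2 F) (hc1 : c ≠ 1) (hfin : IsOfFinOrder c) (hc : Nat.Coprime (orderOf c) (2 * p)) :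
    Matrix.trace (c : M2 F) ^ 2 ≠ 4 := by
  intro h4
  have hp : p.Prime := Fact.out
  have hp2' : 2 ≤ p := hp.two_le
  have hodd : Odd p := hp.odd_of_ne_two hp2
  have hdet : (c : M2 F).det = 1 := c.det_coe
  have hτ : Matrix.trace (c : M2 F) = 2 ∨ Matrix.trace (c : M2 F) = -2 := by
    have h0 : (Matrix.trace (c : M2 F) - 2) * (Matrix.trace (c : M2 F) + 2) = 0 := by
      linear_combination h4
    rcases mul_eq_zero.mp h0 with h | h
    · left
      linear_combination h
    · right
      linear_combination h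
  have hpow : (c : M2 F) ^ (2 * p) = 1 := by
    rcases hτ with h | h
    · have hN := bord_sub_sq (c : M2 F) hdet h
      have h1 := sub_pow_char_of_commute (p := p) (Commute.one_right (c : M2 F))
      rw [bord_pow_zero _ hN p hp2', one_pow] at h1
      have h2 : (c : M2 F) ^ p = 1 := (sub_eq_zero.mp h1.symm)
      rw [mul_comm, pow_mul, h2, one_pow]
    · have hN := bord_add_sq (c : M2 F) hdet h
      have h1 := add_pow_char_of_commute (p := p) (Commute.one_right (c : M2 F))
      rw [bord_pow_zero _ hN p hp2', one_pow] at h1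
      have h2 : (c : M2 F) ^ p = -1 := eq_neg_of_add_eq_zero_left h1.symm
      rw [mul_comm, pow_mul, h2]
      simp
  have hcp : c ^ (2 * p) = 1 := by
    apply Subtype.ext
    rw [Matrix.SpecialLinearGroup.coe_pow]
    exact hpow
  have hdvd : orderOf c ∣ 2 * p := orderOf_dvd_of_pow_eq_one hcp
  have h1 : orderOf c = 1 := Nat.Coprime.eq_one_of_dvd hc hdvd
  exact hc1 (orderOf_eq_one_iff.mp h1)

end Cfsg.Agent.Lib.Helper48.QA
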