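import Mathlib

set_option autoImplicit false

namespace Cfsg.Agent.S983

open Subgroup

variable {G : Type*} [Group G] [Finite G]

theorem dih_aux_conj_pow {s x : G} (h : s * x * s⁻¹ = x⁻¹) (j : ℕ) :
    s * x ^ j * s⁻¹ = (x ^ j)⁻¹ := by
  have h1 : (s * x * s⁻¹) ^ j = s * x ^ j * s⁻¹ := conj_pow
  rw [← h1, h, inv_pow]

theorem dih_aux_inv {s : G} (hs : orderOf s = 2) : s⁻¹ = s := by
  have h2 : s ^ 2 = 1 := by
    have := pow_orderOf_eq_one s
    rwa [hs] at this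
  rw [pow_two] at h2
  exact inv_eq_of_mul_eq_one_left h2

theorem dih_aux_mul {s x : G} (hs : orderOf s = 2) (h : s * x * s⁻¹ = x⁻¹) (j : ℕ) (y : G) :
    (s * x ^ j) * (s * y) = (x ^ j)⁻¹ * y := by
  have h1 := dih_aux_conj_pow h j
  rw [dih_aux_inv hs] at h1
  calc s * x ^ j * (s * y) = (s * x ^ j * s) * y := by group
    _ = (x ^ j)⁻¹ * y := by rw [h1]

theorem dih_aux_ne_one {n : ℕ} (hn : 3 ≤ n) {s x : G} (hx : orderOf x = n)
    (h : s * x * s⁻¹ = x⁻¹) (j : ℕ) : s * x ^ j ≠ 1 := by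
  intro h1
  have hs : s = (x ^ j)⁻¹ := eq_inv_of_mul_eq_one_left h1
  have h2 : x = x⁻¹ := by
    rw [← h, hs]
    group
  have h3 : x ^ 2 = 1 := by
    rw [pow_two]
    calc x * x = x * x⁻¹ := by rw [← h2]
      _ = 1 := mul_inv_cancel x
  have h4 : orderOf x ∣ 2 := orderOf_dvd_of_pow_eq_one h3
  have h5 : orderOf x ≤ 2 := Nat.le_of_dvd (by norm_num) h4
  omega

theorem dih_aux_order {n : ℕ} (hn : 3 ≤ n) {s x : G} (hx : orderOf x = n) (hs : orderOf s = 2)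
    (h : s * x * s⁻¹ = x⁻¹) (j : ℕ) : orderOf (s * x ^ j) = 2 := by
  haveI : Fact (Nat.Prime 2) := ⟨Nat.prime_two⟩
  apply orderOf_eq_prime
  · rw [pow_two, dih_aux_mul hs h j (x ^ j)]
    exact inv_mul_cancel _
  · exact dih_aux_ne_one hn hx h j

theorem dih_aux_prod {s x : G} (hs : orderOf s = 2) (h : s * x * s⁻¹ = x⁻¹) (j : ℕ) :
    (s * x ^ j) * (s * x ^ (j + 1)) = x := by
  rw [dih_aux_mul hs h j (x ^ (j + 1)), pow_succ]
  group

/-- piece DIH -/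
theorem card_inverted_mul_le (n : ℕ) (hn : 3 ≤ n) :
    n * Nat.card {x : G // orderOf x = n ∧ ∃ s : G, orderOf s = 2 ∧ s * x * s⁻¹ = x⁻¹} ≤
      Nat.card {u : G // orderOf u = 2} ^ 2 := by
  classical
  let X := {x : G // orderOf x = n ∧ ∃ s : G, orderOf s = 2 ∧ s * x * s⁻¹ = x⁻¹}
  let I := {u : G // orderOf u = 2}
  let sx : X → G := fun x => Classical.choose x.2.2
  have hsx : ∀ x : X, orderOf (sx x) = 2 ∧ sx x * x.1 * (sx x)⁻¹ = x.1⁻¹ :=
    fun x => Classical.choose_spec x.2.2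
  let Φ : X × Fin n → I × I := fun p =>
    (⟨sx p.1 * p.1.1 ^ (p.2 : ℕ), dih_aux_order hn p.1.2.1 (hsx p.1).1 (hsx p.1).2 _⟩,
     ⟨sx p.1 * p.1.1 ^ ((p.2 : ℕ) + 1), dih_aux_order hn p.1.2.1 (hsx p.1).1 (hsx p.1).2 _⟩)
  have hinj : Function.Injective Φ := by
    rintro ⟨x, i⟩ ⟨x', i'⟩ heq
    have e1 : sx x * x.1 ^ (i : ℕ) = sx x' * x'.1 ^ (i' : ℕ) :=
      congrArg (fun q : I × I => (q.1 : G)) heq
    have e2 : sx x * x.1 ^ ((i : ℕ) + 1) = sx x' * x'.1 ^ ((i' : ℕ) + 1) :=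
      congrArg (fun q : I × I => (q.2 : G)) heq
    have hxx : x.1 = x'.1 := by
      rw [← dih_aux_prod (hsx x).1 (hsx x).2 (i : ℕ), ← dih_aux_prod (hsx x').1 (hsx x').2 (i' : ℕ),
        e1, e2]
    have hx : x = x' := Subtype.ext hxx
    subst hx
    have e3 : x.1 ^ (i : ℕ) = x.1 ^ (i' : ℕ) := mul_left_cancel e1
    have hi : (i : ℕ) = (i' : ℕ) := by
      apply pow_injOn_Iio_orderOf (x := x.1)
      · show (i : ℕ) < orderOf x.1
        rw [x.2.1]; exact i.2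
      · show (i' : ℕ) < orderOf x.1
        rw [x.2.1]; exact i'.2
      · exact e3
    have : i = i' := Fin.ext hi
    rw [this]
  have hle := Nat.card_le_card_of_injective Φ hinj
  rw [Nat.card_prod, Nat.card_prod, Nat.card_fin] at hle
  calc n * Nat.card X = Nat.card X * n := Nat.mul_comm _ _
    _ ≤ Nat.card I * Nat.card I := hle
    _ = Nat.card I ^ 2 := (pow_two _).symm

end Cfsg.Agent.S983
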